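import Mathlib
import Cfsg.Agent.H783.CS.Plane
import Cfsg.Agent.H510.CS.Cent

/-!
# S3677: isometries acting as a field element on `W` (helper783)
-/

set_option autoImplicit false
set_option linter.unusedSectionVars false
set_option linter.style.haveILetI false

namespace Cfsg.Agent.H783.CS

open Module QuadraticMap Polynomial IntermediateField

section field

variable {F : Type*} [Field F] [Finite F]

/-- elements of the same degree generate the same subfield of a finite field -/
theorem exists_poly {K : Type*} [Field K] [Finite K] [Algebra F K] {a a' : K}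
    (h : (minpoly F a).natDegree = (minpoly F a').natDegree) : ∃ P : F[X], aeval a P = a' := by
  classical
  have hfin : FiniteDimensional F K := Module.Finite.of_finite
  have := Fintype.ofFinite K
  have hcard : ∀ b : K, Nat.card F⟮b⟯ = Nat.card F ^ (minpoly F b).natDegree := by
    intro b
    rw [← IntermediateField.adjoin.finrank (Algebra.IsIntegral.isIntegral b)]
    exact Module.natCard_eq_pow_finrank
  set d := (minpoly F a).natDegree with hd
  have hd0 : 0 < d := minpoly.natDegree_pos (Algebra.IsIntegral.isIntegral a)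
  set N := Nat.card F ^ d with hN
  have hN1 : 1 < N := Nat.one_lt_pow hd0.ne' Finite.one_lt_card
  set R : Finset K := Finset.univ.filter fun z : K => z ^ N = z with hR
  have hRc : R.card ≤ N := by
    have h1 : R ⊆ (X ^ N - X : K[X]).roots.toFinset := by
      intro z hz
      rw [hR, Finset.mem_filter] at hz
      rw [Multiset.mem_toFinset, mem_roots (FiniteField.X_pow_card_sub_X_ne_zero K hN1), IsRoot.def, eval_sub, eval_pow,
        eval_X, hz.2, sub_self]
    calc R.card ≤ (X ^ N - X : K[X]).roots.toFinset.card := Finset.card_le_card h1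
      _ ≤ Multiset.card (X ^ N - X : K[X]).roots := Multiset.toFinset_card_le _
      _ ≤ (X ^ N - X : K[X]).natDegree := card_roots' _
      _ = N := FiniteField.X_pow_card_sub_X_natDegree_eq K hN1
  have key : ∀ b : K, (minpoly F b).natDegree = d → (Finset.univ.filter fun z : K => z ∈ F⟮b⟯) = R := by
    intro b hb
    apply Finset.eq_of_subset_of_card_le
    · intro z hz
      rw [Finset.mem_filter] at hz
      rw [hR, Finset.mem_filter]
      refine ⟨Finset.mem_univ _, ?_⟩
      have := Fintype.ofFinite F⟮b⟯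
      have h2 := FiniteField.pow_card (⟨z, hz.2⟩ : F⟮b⟯)
      rw [← Nat.card_eq_fintype_card, hcard b, hb] at h2
      exact congrArg Subtype.val h2
    · refine hRc.trans (le_of_eq ?_)
      have h3 : (Finset.univ.filter fun z : K => z ∈ F⟮b⟯).card = Nat.card F⟮b⟯ := by
        rw [Nat.card_eq_fintype_card, Fintype.card_subtype]
      rw [h3, hcard b, hb]
  have h1 : a' ∈ Finset.univ.filter fun z : K => z ∈ F⟮a⟯ := by
    rw [key a rfl, ← key a' h.symm, Finset.mem_filter]
    exact ⟨Finset.mem_univ _, IntermediateField.mem_adjoin_simple_self F a'⟩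
  rw [Finset.mem_filter] at h1
  have h2 := h1.2
  rw [← IntermediateField.mem_toSubalgebra,
    IntermediateField.adjoin_simple_toSubalgebra_of_isAlgebraic (Algebra.IsAlgebraic.isAlgebraic a),
    Algebra.adjoin_singleton_eq_range_aeval] at h2
  obtain ⟨P, hP⟩ := h2
  exact ⟨P, hP⟩

/-- an invariant subspace has dimension divisible by the degree -/
theorem dvd_finrank {K : Type*} [Field K] [Finite K] [Algebra F K] {W : Type*} [AddCommGroup W] [Module F W]
    [FiniteDimensional F W] (φ : K →ₐ[F] Module.End F W) (a : K) (N : Submodule F W) (hN : ∀ v ∈ N, φ a v ∈ N) :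
    (minpoly F a).natDegree ∣ finrank F N := by
  have hfin : FiniteDimensional F K := Module.Finite.of_finite
  have hpoly : ∀ (P : F[X]), ∀ v ∈ N, φ (aeval a P) v ∈ N := by
    intro P v hv
    have hpow : ∀ n : ℕ, φ (a ^ n) v ∈ N := by
      intro n
      induction n with
      | zero => rw [pow_zero, map_one]; exact hv
      | succ n ih => rw [pow_succ', map_mul]; exact hN _ ih
    induction P using Polynomial.induction_on' with
    | add p q hp hq => rw [map_add, map_add]; exact N.add_mem hp hq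
    | monomial n c =>
      rw [aeval_monomial, map_mul, AlgHom.commutes]
      exact N.smul_mem c (hpow n)
  letI : Module F⟮a⟯ W := Module.compHom W ((φ : K →+* Module.End F W).comp (algebraMap F⟮a⟯ K))
  have hsm : ∀ (c : F⟮a⟯) (w : W), c • w = φ (c : K) w := fun _ _ => rfl
  haveI : IsScalarTower F F⟮a⟯ W := ⟨fun c k v => by
    rw [hsm, hsm]
    have : ((c • k : F⟮a⟯) : K) = c • (k : K) := rfl
    rw [this, map_smul, LinearMap.smul_apply]⟩
  let N' : Submodule F⟮a⟯ W :=
    { carrier := N
      add_mem' := N.add_mem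
      zero_mem' := N.zero_mem
      smul_mem' := by
        rintro ⟨c, hc⟩ w hw
        rw [hsm]
        rw [← IntermediateField.mem_toSubalgebra,
          IntermediateField.adjoin_simple_toSubalgebra_of_isAlgebraic (Algebra.IsAlgebraic.isAlgebraic a),
          Algebra.adjoin_singleton_eq_range_aeval] at hc
        obtain ⟨P, rfl⟩ := hc
        exact hpoly P w hw }
  have h1 : finrank F F⟮a⟯ * finrank F⟮a⟯ N' = finrank F N' := Module.finrank_mul_finrank F F⟮a⟯ N'
  have h2 : finrank F N' = finrank F N := by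
    apply LinearEquiv.finrank_eq
    exact
      { toFun := fun x => ⟨x.1, x.2⟩
        invFun := fun x => ⟨x.1, x.2⟩
        map_add' := fun _ _ => rfl
        map_smul' := fun _ _ => rfl
        left_inv := fun _ => rfl
        right_inv := fun _ => rfl }
  rw [← h2, ← h1, IntermediateField.adjoin.finrank (Algebra.IsIntegral.isIntegral a)]
  exact Dvd.intro _ rfl

end field

section geo

variable {F : Type*} [Field F] [Finite F] {V : Type*} [AddCommGroup V] [Module F V] [FiniteDimensional F V]
  {Q : QuadraticForm F V} {W C : Submodule F V} {e₁ e₂ : V}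
  {K : Type*} [Field K] [Finite K] [Algebra F K] {φ : K →ₐ[F] Module.End F W}

theorem inv_smul {a : K} (ha : a ≠ 0) {w : W} (h : φ a w = 0) : w = 0 := by
  have h1 : (φ a⁻¹ * φ a) w = w := by
    rw [← map_mul, inv_mul_cancel₀ ha, map_one]
    rfl
  rw [← h1, Module.End.mul_apply, h, map_zero]

theorem surj_smul {a : K} (ha : a ≠ 0) (w : W) : ∃ w', φ a w' = w := by
  refine ⟨φ a⁻¹ w, ?_⟩
  rw [← Module.End.mul_apply, ← map_mul, mul_inv_cancel₀ ha, map_one]
  rfl

/-- eigenvectors with a value different from `a` lie in `C` -/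
theorem Geo.eig (h : Geo Q W C e₁ e₂) {X : Module.End F V} {a : K} (ha : ∀ w : W, X w = φ a w)
    (hXC : ∀ c ∈ C, X c ∈ C) {l : F} (hl : a ≠ algebraMap F K l) {v : V} (hv : X v = l • v) : v ∈ C := by
  obtain ⟨w, hw, c, hc, rfl⟩ := h.ex v
  rw [map_add, smul_add, ha ⟨w, hw⟩] at hv
  have h4 : (φ a ⟨w, hw⟩ : V) - l • w = l • c - X c := by
    rw [sub_eq_sub_iff_add_eq_add, hv, add_comm]
  have h5 : (φ a ⟨w, hw⟩ : V) - l • w = 0 := (Submodule.disjoint_def.1 h.ic.disjoint) _
    (W.sub_mem (φ a ⟨w, hw⟩).2 (W.smul_mem l hw)) (h4 ▸ C.sub_mem (C.smul_mem l hc) (hXC c hc))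
  have h6 : φ (a - algebraMap F K l) ⟨w, hw⟩ = 0 := by
    apply Subtype.ext
    rw [map_sub, AlgHom.commutes, LinearMap.sub_apply, Module.algebraMap_end_apply]
    exact h5
  have h7 : w = 0 := congrArg Subtype.val (inv_smul (sub_ne_zero.2 hl) h6)
  rw [h7, zero_add]
  exact hc

/-- the decomposition is canonical (type B) -/
theorem Geo.canon (h : Geo Q W C e₁ e₂) {X : Module.End F V} {a : K} (ha : ∀ w : W, X w = φ a w)
    (hna : ∀ l : F, a ≠ algebraMap F K l) (hX : Dg e₁ e₂ X) {g : Module.End F V} {ε : F} (hε : ε ≠ 0)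
    (hg : ∀ v, g (X v) = ε • X (g v)) : ∀ c ∈ C, g c ∈ C := by
  have hXC : ∀ c ∈ C, X c ∈ C := fun c hc => h.dg_keep hX hc
  obtain ⟨l, hl, h1, h2⟩ := hX
  have key : ∀ (v : V) (m : F), X v = m • v → g v ∈ C := by
    intro v m hv
    apply h.eig ha hXC (hna (ε⁻¹ * m)) (v := g v)
    have h3 := hg v
    rw [hv, map_smul] at h3
    rw [mul_smul, h3, smul_smul, inv_mul_cancel₀ hε, one_smul]
  intro c hc
  obtain ⟨x, y, rfl⟩ := h.memC hc
  rw [map_add, map_smul, map_smul]
  exact C.add_mem (C.smul_mem x (key e₁ l h1)) (C.smul_mem y (key e₂ _ h2))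

/-- the fixed space on `W` of an operator commuting with `X` has even dimension -/
theorem Geo.dvd_fix (h : Geo Q W C e₁ e₂) {X : Module.End F V} {a : K} (ha : ∀ w : W, X w = φ a w)
    {g : Module.End F V} (hg : ∀ v, g (X v) = X (g v)) :
    (minpoly F a).natDegree ∣ finrank F (LinearMap.ker (g - 1) ⊓ W : Submodule F V) := by
  have h1 := dvd_finrank φ a ((LinearMap.ker (g - 1)).comap W.subtype) (by
    intro v hv
    rw [Submodule.mem_comap, LinearMap.mem_ker, LinearMap.sub_apply, Module.End.one_apply, sub_eq_zero,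
      Submodule.subtype_apply] at hv ⊢
    rw [← ha, hg, hv])
  have h2 : finrank F ((LinearMap.ker (g - 1)).comap W.subtype) =
      finrank F (LinearMap.ker (g - 1) ⊓ W : Submodule F V) := by
    rw [inf_comm, ← Submodule.map_comap_subtype, Submodule.finrank_map_subtype_eq]
  rw [← h2]
  exact h1

/-- an isometry commuting with `X` with even-dimensional fixed space is diagonal on the plane -/
theorem Geo.dg_of_fix (h : Geo Q W C e₁ e₂) {X : Module.End F V} {a : K} (ha : ∀ w : W, X w = φ a w)
    (hev : Even (minpoly F a).natDegree) {g : Module.End F V} (hT : ∀ v, Q (g v) = Q v) (hC : ∀ v ∈ C, g v ∈ C)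
    (hg : ∀ v, g (X v) = X (g v)) (he : Even (finrank F (LinearMap.ker (g - 1)))) : Dg e₁ e₂ g := by
  apply h.dg_of_even hT hC
  rw [h.fix_split (h.keepW hT hC) hC] at he
  have h1 : Even (finrank F (LinearMap.ker (g - 1) ⊓ W : Submodule F V)) := by
    obtain ⟨c, hc⟩ := h.dvd_fix ha hg
    rw [hc]
    exact hev.mul_right c
  exact (Nat.even_add.1 he).1 h1

/-- operators commuting with `X` commute with `X'` -/
theorem Geo.same (h : Geo Q W C e₁ e₂) {X X' : Module.End F V} {a a' : K} (ha : ∀ w : W, X w = φ a w)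
    (ha' : ∀ w : W, X' w = φ a' w) {P : F[X]} (hP : aeval a P = a') (hX' : Dg e₁ e₂ X') {g : Module.End F V}
    (hgC : Dg e₁ e₂ g) (hgW : ∀ v ∈ W, g v ∈ W) (hg : ∀ v, g (X v) = X (g v)) : ∀ v, g (X' v) = X' (g v) := by
  have key : g * X' = X' * g := by
    apply h.ext_on
    · intro v hv
      have h1 : Commute (g.restrict hgW) (φ a) := by
        apply LinearMap.ext
        intro w
        apply Subtype.ext
        change g (φ a w : V) = (φ a ⟨g w, hgW w w.2⟩ : V)
        rw [← ha, ← ha ⟨g w, hgW w w.2⟩, hg]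
      have h2 : Commute (g.restrict hgW) (φ a') := by
        rw [← hP, ← Polynomial.aeval_algHom_apply]
        exact comm_aeval h1 P
      have h3 := congrArg Subtype.val (LinearMap.congr_fun h2.eq ⟨v, hv⟩)
      change g (φ a' ⟨v, hv⟩ : V) = (φ a' ⟨g v, hgW v hv⟩ : V) at h3
      rw [← ha', ← ha'] at h3
      exact h3
    · intro v hv
      exact h.dg_comm hgC hX' hv
  intro v
  exact LinearMap.congr_fun key v

theorem Geo.exists_ne (h : Geo Q W C e₁ e₂) [Nontrivial W] : ∃ w ∈ W, Q w ≠ 0 := by
  by_contra hcon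
  push Not at hcon
  obtain ⟨w, hw⟩ := _root_.exists_ne (0 : W)
  apply hw
  apply Subtype.ext
  apply h.nd
  intro v
  obtain ⟨w', hw', c, hc, rfl⟩ := h.ex v
  rw [polar_add_right, h.perp w w.2 c hc, add_zero]
  unfold polar
  rw [hcon w w.2, hcon w' hw', hcon _ (W.add_mem w.2 hw')]
  ring

/-- scalars which are isometries -/
theorem Geo.scalar (h : Geo Q W C e₁ e₂) [Nontrivial W] {X : Module.End F V} (hX : ∀ v, Q (X v) = Q v) {l : F}
    (hl : ∀ w ∈ W, X w = l • w) : l = 1 ∨ l = -1 := by
  obtain ⟨w, hw, hq⟩ := h.exists_ne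
  have h1 := hX w
  rw [hl w hw, QuadraticMap.map_smul, smul_eq_mul] at h1
  have h2 : (l * l - 1) * Q w = 0 := by linear_combination h1
  have h3 : l * l - 1 = 0 := (mul_eq_zero.1 h2).resolve_right hq
  exact mul_self_eq_one_iff.1 (sub_eq_zero.1 h3)

/-- the restriction of an isometry to `W` as an equivalence -/
noncomputable def resW (h : Geo Q W C e₁ e₂) {X : Module.End F V} (hX : ∀ v, Q (X v) = Q v)
    (hXW : ∀ v ∈ W, X v ∈ W) : W ≃ₗ[F] W :=
  LinearEquiv.ofInjectiveEndo (X.restrict hXW) fun a b hab => Subtype.ext (h.inj hX (congrArg Subtype.val hab))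

theorem resW_apply (h : Geo Q W C e₁ e₂) {X : Module.End F V} (hX : ∀ v, Q (X v) = Q v)
    (hXW : ∀ v ∈ W, X v ∈ W) (w : W) : (resW h hX hXW w : V) = X w := rfl

theorem resW_coe (h : Geo Q W C e₁ e₂) {X : Module.End F V} (hX : ∀ v, Q (X v) = Q v)
    (hXW : ∀ v ∈ W, X v ∈ W) {a : K} (ha : ∀ w : W, X w = φ a w) :
    ((resW h hX hXW : W ≃ₗ[F] W) : Module.End F W) = φ a := by
  apply LinearMap.ext
  intro w
  apply Subtype.ext
  rw [LinearEquiv.coe_coe, resW_apply, ha]

theorem Geo.frm (_h : Geo Q W C e₁ e₂) : H951.Frm (RingHom.id F) (1 : F) (fun u v : W => polar Q (u : V) v) where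
  add_left u v w := by simp only [Submodule.coe_add, polar_add_left]
  smul_left a u v := by simp only [Submodule.coe_smul, polar_smul_left, smul_eq_mul]
  herm u v := by rw [polar_comm, one_mul]; rfl
  sigma_sq _ := rfl
  eps_ne := one_ne_zero

theorem Geo.ndW (h : Geo Q W C e₁ e₂) (u : W) (hu : ∀ v : W, polar Q (u : V) v = 0) : u = 0 := by
  apply Subtype.ext
  apply h.nd
  intro v
  obtain ⟨w', hw', c, hc, rfl⟩ := h.ex v
  rw [polar_add_right, h.perp u u.2 c hc, add_zero]
  exact hu ⟨w', hw'⟩

theorem phi_inj [Nontrivial W] : Function.Injective φ := φ.toRingHom.injective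

/-- **the order of the centralizer on `W`** -/
theorem Geo.count (h : Geo Q W C e₁ e₂) [Nontrivial W] {X : Module.End F V} (hX : ∀ v, Q (X v) = Q v)
    (hXW : ∀ v ∈ W, X v ∈ W) {a : K} (ha : ∀ w : W, X w = φ a w) (hna : ∀ l : F, a ≠ algebraMap F K l) :
    ∃ k m, 0 < k ∧ 0 < m ∧ finrank F W = 2 * k * m ∧ (minpoly F a).natDegree = 2 * k ∧
      Nat.card {g : W ≃ₗ[F] W // (∀ u v : W, polar Q (g u : V) (g v) = polar Q (u : V) v) ∧
        ∀ v, g (resW h hX hXW v) = resW h hX hXW (g v)} =
        (Nat.card F ^ k) ^ (m * (m - 1) / 2) *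
          ∏ i ∈ Finset.range m, (if Even i then (Nat.card F ^ k) ^ (i + 1) + 1 else (Nat.card F ^ k) ^ (i + 1) - 1) := by
  have hfin : FiniteDimensional F K := Module.Finite.of_finite
  have hmin : minpoly F ((resW h hX hXW : W ≃ₗ[F] W) : Module.End F W) = minpoly F a := by
    rw [resW_coe h hX hXW ha, minpoly.algHom_eq φ phi_inj]
  rw [← hmin]
  apply H510.CS.card_cent h.frm h.ndW (Or.inl rfl)
  · intro u v
    exact polar_iso hX u v
  · rw [hmin]
    exact minpoly.irreducible (Algebra.IsIntegral.isIntegral a)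
  · by_contra hcon
    push Not at hcon
    have h1 : φ (a * a - 1) = 0 := by
      apply LinearMap.ext
      intro w
      apply Subtype.ext
      rw [map_sub, map_mul, map_one, LinearMap.sub_apply, Module.End.mul_apply, Module.End.one_apply]
      have h2 : φ a (φ a w) = w := by
        rw [← resW_coe h hX hXW ha]
        exact hcon w
      rw [h2, sub_self]
      rfl
    have h3 : a * a - 1 = 0 := phi_inj (h1.trans (map_zero φ).symm)
    rcases mul_self_eq_one_iff.1 (sub_eq_zero.1 h3) with h4 | h4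
    · exact hna 1 (by rw [map_one]; exact h4)
    · exact hna (-1) (by rw [map_neg, map_one]; exact h4)

theorem sq_ne (h : Geo Q W C e₁ e₂) [Nontrivial W] {X : Module.End F V} (hX : ∀ v, Q (X v) = Q v)
    (hXW : ∀ v ∈ W, X v ∈ W) {a : K} (ha : ∀ w : W, X w = φ a w) (hna : ∀ l : F, a ≠ algebraMap F K l) :
    ∃ v, resW h hX hXW (resW h hX hXW v) ≠ v := by
  by_contra hcon
  push Not at hcon
  have h1 : φ (a * a - 1) = 0 := by
    apply LinearMap.ext
    intro w
    apply Subtype.ext
    rw [map_sub, map_mul, map_one, LinearMap.sub_apply, Module.End.mul_apply, Module.End.one_apply]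
    have h2 : φ a (φ a w) = w := by
      rw [← resW_coe h hX hXW ha]
      exact hcon w
    rw [h2, sub_self]
    rfl
  have h3 : a * a - 1 = 0 := phi_inj (h1.trans (map_zero φ).symm)
  rcases mul_self_eq_one_iff.1 (sub_eq_zero.1 h3) with h4 | h4
  · exact hna 1 (by rw [map_one]; exact h4)
  · exact hna (-1) (by rw [map_neg, map_one]; exact h4)

/-- **the defect** -/
theorem Geo.defect (h : Geo Q W C e₁ e₂) [Nontrivial W] (h2 : (2 : F) ≠ 0) {X : Module.End F V} (hX : ∀ v, Q (X v) = Q v)
    (hXW : ∀ v ∈ W, X v ∈ W) {a : K} (ha : ∀ w : W, X w = φ a w) (hna : ∀ l : F, a ≠ algebraMap F K l)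
    {g : Module.End F V} (hg : ∀ v, Q (g v) = Q v) (hgW : ∀ v ∈ W, g v ∈ W) (hgX : ∀ v, g (X v) = - X (g v)) :
    a * a = -1 ∧ (minpoly F a).natDegree ≤ 2 := by
  have hfin : FiniteDimensional F K := Module.Finite.of_finite
  have hmin : minpoly F ((resW h hX hXW : W ≃ₗ[F] W) : Module.End F W) = minpoly F a := by
    rw [resW_coe h hX hXW ha, minpoly.algHom_eq φ phi_inj]
  have h3 := H510.CS.sq_of_neg h.frm h.ndW (W := resW h hX hXW) (fun u v => polar_iso hX u v) (by
    rw [hmin]
    exact minpoly.irreducible (Algebra.IsIntegral.isIntegral a)) (sq_ne h hX hXW ha hna) h2 (g := resW h hg hgW) (by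
    intro v
    apply Subtype.ext
    rw [Submodule.coe_neg, resW_apply, resW_apply, resW_apply, resW_apply]
    exact hgX v)
  rw [hmin] at h3
  refine ⟨?_, h3.2⟩
  have h4 : φ (a * a + 1) = 0 := by
    apply LinearMap.ext
    intro w
    rw [map_add, map_mul, map_one, LinearMap.add_apply, Module.End.mul_apply, Module.End.one_apply]
    have h5 : φ a (φ a w) = -w := by
      rw [← resW_coe h hX hXW ha]
      exact h3.1 w
    rw [h5, neg_add_cancel]
    rfl
  have h6 : a * a + 1 = 0 := phi_inj (h4.trans (map_zero φ).symm)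
  exact eq_neg_of_add_eq_zero_left h6

/-- **no defect when `C` is a hyperbolic plane** -/
theorem Geo.no_defect (h : Geo Q W C e₁ e₂) [Nontrivial W] (h2 : (2 : F) ≠ 0) (hp : polar Q e₁ e₂ = 1)
    {X : Module.End F V} (hX : ∀ v, Q (X v) = Q v)
    (hXW : ∀ v ∈ W, X v ∈ W) {a : K} (ha : ∀ w : W, X w = φ a w) (hna : ∀ l : F, a ≠ algebraMap F K l)
    (hXC : Dg e₁ e₂ X) {g : Module.End F V} (hg : ∀ v, Q (g v) = Q v) (hgX : ∀ v, g (X v) = - X (g v)) : False := by
  have hgC : ∀ c ∈ C, g c ∈ C := h.canon ha hna hXC (ε := -1) (neg_ne_zero.2 one_ne_zero) (fun v => by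
    rw [hgX, neg_smul, one_smul])
  have hgW := h.keepW hg hgC
  obtain ⟨h3, -⟩ := h.defect h2 hX hXW ha hna hg hgW hgX
  obtain ⟨l, hl, h4, h5⟩ := hXC
  have e11 : polar Q e₁ e₁ = 0 := by
    rw [polar_self]; simp [h.q1]
  have e22 : polar Q e₂ e₂ = 0 := by
    rw [polar_self]; simp [h.q2]
  have e21 : polar Q e₂ e₁ = 1 := by rw [polar_comm]; exact hp
  have hli : ∀ a b : F, a • e₁ + b • e₂ = 0 → a = 0 ∧ b = 0 := by
    intro a b hab
    constructor
    · have := congrArg (fun v => polar Q v e₂) hab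
      simp only [polar_add_left, polar_smul_left, e22, hp, polar_zero_left, smul_eq_mul, mul_zero, add_zero,
        mul_one] at this
      exact this
    · have := congrArg (fun v => polar Q v e₁) hab
      simp only [polar_add_left, polar_smul_left, e11, e21, polar_zero_left, smul_eq_mul, mul_zero, zero_add,
        mul_one] at this
      exact this
  obtain ⟨x, y, hxy⟩ := h.memC (hgC e₁ h.e1C)
  have h6 := hgX e₁
  rw [h4, map_smul, hxy, map_add, map_smul, map_smul, h4, h5] at h6
  have h7 : (2 * (l * x)) • e₁ + (l * y + y * l⁻¹) • e₂ = 0 := by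
    have h8 : (2 * (l * x)) • e₁ + (l * y + y * l⁻¹) • e₂ =
        l • (x • e₁ + y • e₂) + (x • l • e₁ + y • l⁻¹ • e₂) := by
      simp only [smul_add, smul_smul, add_smul, two_mul]
      rw [mul_comm x l]
      abel
    rw [h8, h6, neg_add_cancel]
  obtain ⟨h8, h9⟩ := hli _ _ h7
  have hx : x = 0 := ((mul_eq_zero.1 ((mul_eq_zero.1 h8).resolve_left h2)).resolve_left hl)
  have hy : y ≠ 0 := by
    rintro rfl
    rw [hx, zero_smul, zero_smul, add_zero] at hxy
    have h10 : e₁ = 0 := h.inj hg (hxy.trans (map_zero g).symm)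
    rw [h10, polar_zero_left] at hp
    exact zero_ne_one hp
  have h11 : l * l = -1 := by
    have h12 : y * (l + l⁻¹) = 0 := by linear_combination h9
    have h13 : l + l⁻¹ = 0 := (mul_eq_zero.1 h12).resolve_left hy
    have h14 : l * (l + l⁻¹) = 0 := by rw [h13, mul_zero]
    rw [mul_add, mul_inv_cancel₀ hl] at h14
    exact eq_neg_of_add_eq_zero_left h14
  have h12 : (a - algebraMap F K l) * (a + algebraMap F K l) = 0 := by
    have h13 : algebraMap F K l * algebraMap F K l = -1 := by rw [← map_mul, h11, map_neg, map_one]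
    linear_combination h3 - h13
  rcases mul_eq_zero.1 h12 with h13 | h13
  · exact hna l (sub_eq_zero.1 h13)
  · exact hna (-l) (by rw [map_neg]; exact eq_neg_of_add_eq_zero_left h13)

end geo

end Cfsg.Agent.H783.CS
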