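import Mathlib
import Cfsg.Agent.H431.CS.Defs

/-!
# S3677: the lattice condition `LatW` from the centralizer of one element of order `r` (helper783)
-/

set_option autoImplicit false
set_option linter.unusedSectionVars false

namespace Cfsg.Agent.H783.CS

open Subgroup Cfsg.Agent.H364 Cfsg.Agent.H370.AAM Cfsg.Agent.H431.CS

universe u v

/-- if every `p`-element of `H` lies in `K` then `|H|_p ≤ |K|_p` -/
theorem fact_le {G : Type u} [Group G] [Finite G] {p : ℕ} (hp : p.Prime) {H K : Subgroup G}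
    (h : ∀ g ∈ H, ∀ j : ℕ, g ^ p ^ j = 1 → g ∈ K) :
    (Nat.card H).factorization p ≤ (Nat.card K).factorization p := by
  have := Fact.mk hp
  obtain ⟨P⟩ : Nonempty (Sylow p H) := inferInstance
  have hle : (P : Subgroup H).map H.subtype ≤ K := by
    rintro _ ⟨x, hx, rfl⟩
    obtain ⟨j, hj⟩ := P.isPGroup' ⟨x, hx⟩
    refine h _ x.2 j ?_
    have h1 := congrArg (fun t : P => ((t : H) : G)) hj
    simpa using h1
  have h1 : Nat.card ((P : Subgroup H).map H.subtype) = p ^ (Nat.card H).factorization p := by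
    rw [← P.card_eq_multiplicity]
    exact (Nat.card_congr ((P : Subgroup H).equivMapOfInjective H.subtype H.subtype_injective).toEquiv).symm
  have h2 := Subgroup.card_dvd_of_le hle
  rw [h1] at h2
  exact (hp.pow_dvd_iff_le_factorization Nat.card_pos.ne').1 h2

/-- a homomorphism with kernel of order prime to `p` whose range contains the `p`-elements preserves the `p`-part of the order -/
theorem fact_hom {A : Type u} [Group A] [Finite A] {B : Type v} [Group B] [Finite B] {p : ℕ} (hp : p.Prime) (f : A →* B)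
    (hk : ¬ p ∣ Nat.card f.ker) (h : ∀ b : B, ∀ j : ℕ, b ^ p ^ j = 1 → b ∈ f.range) :
    (Nat.card A).factorization p = (Nat.card B).factorization p := by
  have h1 : Nat.card A = Nat.card f.ker * Nat.card f.range := by
    rw [← f.ker.card_mul_index, Subgroup.index_ker]
  rw [h1, Nat.factorization_mul Nat.card_pos.ne' Nat.card_pos.ne', Finsupp.add_apply,
    Nat.factorization_eq_zero_of_not_dvd hk, zero_add]
  apply le_antisymm
  · exact (hp.pow_dvd_iff_le_factorization Nat.card_pos.ne').1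
      ((Nat.ordProj_dvd _ p).trans (Subgroup.card_subgroup_dvd_card f.range))
  · have := fact_le hp (H := (⊤ : Subgroup B)) (K := f.range) (fun g _ j hj => h g j hj)
    rwa [Subgroup.card_top] at this

/-- a `p`-element with `g ^ N = 1`, `N` prime to `p`, is trivial -/
theorem eq_one_of_pow {G : Type u} [Group G] {p : ℕ} (hp : p.Prime) {g : G} {j N : ℕ} (hj : g ^ p ^ j = 1)
    (hN : ¬ p ∣ N) (h : g ^ N = 1) : g = 1 := by
  have h1 : Nat.Coprime (p ^ j) N := Nat.Coprime.pow_left j ((Nat.Prime.coprime_iff_not_dvd hp).2 hN)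
  have h2 : orderOf g ∣ Nat.gcd (p ^ j) N := Nat.dvd_gcd (orderOf_dvd_of_pow_eq_one hj) (orderOf_dvd_of_pow_eq_one h)
  rw [h1, Nat.dvd_one] at h2
  exact orderOf_eq_one_iff.1 h2

variable {S : Type u} [Group S] [Finite S]

theorem cent_one : Subgroup.centralizer ({1} : Set S) = ⊤ := by
  rw [eq_top_iff]
  intro y _
  rw [Subgroup.mem_centralizer_singleton_iff]
  simp

theorem ne_one_of_card {x : S} (h : Nat.card (Subgroup.centralizer ({x} : Set S)) ≠ Nat.card S) : x ≠ 1 := by
  rintro rfl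
  apply h
  rw [cent_one, Subgroup.card_top]

theorem card_cent_conj (s x : S) : Nat.card (Subgroup.centralizer ({s * x * s⁻¹} : Set S)) =
    Nat.card (Subgroup.centralizer ({x} : Set S)) :=
  (card_cent_congr (MulAut.conj s) x).symm

/-- every element commuting with an element of order `r` is conjugate to one commuting with `y₀` -/
theorem exists_conj {r : ℕ} (hr : r.Prime) {y₀ : S} (hy : orderOf y₀ = r) (P : Sylow r S)
    (hyZ : ∀ z ∈ P, Commute z y₀) (huniq : ∀ y : S, orderOf y = r → Commute y y₀ → y ∈ zpowers y₀) {x : S}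
    (hx : r ∣ Nat.card (Subgroup.centralizer ({x} : Set S))) :
    ∃ x₁ : S, Commute x₁ y₀ ∧ (x ≠ 1 → x₁ ≠ 1) ∧
      Nat.card (Subgroup.centralizer ({x₁} : Set S)) = Nat.card (Subgroup.centralizer ({x} : Set S)) := by
  have := Fact.mk hr
  obtain ⟨⟨y, hy1⟩, hy2⟩ := exists_prime_orderOf_dvd_card' r hx
  rw [Subgroup.orderOf_mk] at hy2
  have hpg : IsPGroup r (zpowers y) := by
    apply IsPGroup.of_card (n := 1)
    rw [Nat.card_zpowers, hy2, pow_one]
  obtain ⟨Q, hQ⟩ := hpg.exists_le_sylow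
  obtain ⟨s, hs⟩ := MulAction.exists_smul_eq S Q P
  have hsy : s * y * s⁻¹ ∈ (P : Subgroup S) := by
    rw [← hs, Sylow.coe_subgroup_smul]
    exact Subgroup.smul_mem_pointwise_smul y (MulAut.conj s) _ (hQ (mem_zpowers y))
  have ho : orderOf (s * y * s⁻¹) = r := by
    rw [← hy2]
    exact orderOf_injective (MulAut.conj s).toMonoidHom (MulAut.conj s).injective y
  have hmem := huniq _ ho (hyZ _ hsy)
  -- `y₀` is a power of the conjugate
  have hz : zpowers (s * y * s⁻¹) = zpowers y₀ := by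
    apply Subgroup.eq_of_le_of_card_ge (zpowers_le.2 hmem)
    rw [Nat.card_zpowers, Nat.card_zpowers, ho, hy]
  have hy0 : y₀ ∈ zpowers (s * y * s⁻¹) := hz ▸ mem_zpowers y₀
  obtain ⟨k, hk⟩ := mem_zpowers_iff.1 hy0
  refine ⟨s * x * s⁻¹, ?_, ?_, card_cent_conj s x⟩
  · have h1 : Commute (s * x * s⁻¹) (s * y * s⁻¹) := (mem_cent.1 hy1).symm.map (MulAut.conj s).toMonoidHom
    rw [← hk]
    exact h1.zpow_right k
  · intro hx1 h
    apply hx1
    have h2 : s * x = s := by rw [← mul_inv_eq_one, h]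
    exact mul_eq_left.1 h2

/-- **The abstract form of the lattices.** -/
theorem latW_of {p r : ℕ} (hp : p.Prime) (hr : r.Prime) (hrp : r ≠ p) (hpS : p ∣ Nat.card S) (hE : NoEdge S r p)
    {y₀ : S} (hy : orderOf y₀ = r) (P : Sylow r S) (hyZ : ∀ z ∈ P, Commute z y₀)
    (huniq : ∀ y : S, orderOf y = r → Commute y y₀ → y ∈ zpowers y₀)
    (h3 : ∀ x : S, x ≠ 1 → Commute x y₀ →
      (Nat.card (Subgroup.centralizer ({x} : Set S))).factorization p < (Nat.card S).factorization p)
    (h4 : ∀ x : S, x ≠ 1 → Commute x y₀ →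
      (∀ x' : S, x' ≠ 1 → Commute x' y₀ → (Nat.card (Subgroup.centralizer ({x'} : Set S))).factorization p ≤
        (Nat.card (Subgroup.centralizer ({x} : Set S))).factorization p) ∨
      (∀ x' : S, x' ≠ 1 → Commute x' y₀ → (Nat.card (Subgroup.centralizer ({x'} : Set S))).factorization p =
        (Nat.card (Subgroup.centralizer ({x} : Set S))).factorization p →
        Nat.card (Subgroup.centralizer ({x'} : Set S)) = Nat.card (Subgroup.centralizer ({x} : Set S)))) :
    LatW S p r := by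
  have := Fact.mk hr
  have := Fact.mk hp
  have hpos : ∀ x : S, Nat.card (Subgroup.centralizer ({x} : Set S)) ≠ 0 := fun x => Nat.card_pos.ne'
  refine ⟨?_, ?_, ?_, ?_⟩
  · obtain ⟨u, hu⟩ := exists_prime_orderOf_dvd_card' p hpS
    refine ⟨_, mem_co u, fun hd => ?_⟩
    obtain ⟨⟨y, hy1⟩, hy2⟩ := exists_prime_orderOf_dvd_card' r hd
    rw [Subgroup.orderOf_mk] at hy2
    exact hE.false_of_commute hr hp hrp (mem_cent.1 hy1) hy2 hu
  · refine ⟨_, mem_co y₀, ?_, fun hd => ?_⟩
    · rw [← P.card_eq_multiplicity]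
      exact Subgroup.card_dvd_of_le fun z hz => mem_cent.2 (hyZ z hz)
    · obtain ⟨⟨u, hu1⟩, hu2⟩ := exists_prime_orderOf_dvd_card' p hd
      rw [Subgroup.orderOf_mk] at hu2
      exact hE.false_of_commute hr hp hrp (mem_cent.1 hu1).symm hy hu2
  · rintro _ ⟨x, rfl⟩ hc hrx hd
    dsimp only at hc hrx hd
    obtain ⟨x₁, h1, h2, h5⟩ := exists_conj hr hy P hyZ huniq hrx
    have h6 := h3 x₁ (h2 (ne_one_of_card hc)) h1
    rw [h5] at h6
    rw [hp.pow_dvd_iff_le_factorization (hpos x)] at hd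
    omega
  · rintro _ ⟨x, rfl⟩ hc hrx -
    dsimp only at hc hrx ⊢
    obtain ⟨x₁, h1, h2, h5⟩ := exists_conj hr hy P hyZ huniq hrx
    have h6 := h4 x₁ (h2 (ne_one_of_card hc)) h1
    rw [h5] at h6
    rcases h6 with h6 | h6
    · left
      rintro _ ⟨x', rfl⟩ hc' hrx'
      dsimp only at hc' hrx' ⊢
      obtain ⟨x₁', h1', h2', h5'⟩ := exists_conj hr hy P hyZ huniq hrx'
      rw [← h5']
      exact h6 x₁' (h2' (ne_one_of_card hc')) h1'
    · right
      rintro _ ⟨x', rfl⟩ hrx' hd hf
      dsimp only at hrx' hd hf ⊢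
      have hc' : Nat.card (Subgroup.centralizer ({x'} : Set S)) ≠ Nat.card S := by
        intro h
        apply hc
        exact Nat.dvd_antisymm (Subgroup.card_subgroup_dvd_card _) (h ▸ hd)
      obtain ⟨x₁', h1', h2', h5'⟩ := exists_conj hr hy P hyZ huniq hrx'
      rw [← h5'] at hf ⊢
      exact h6 x₁' (h2' (ne_one_of_card hc')) h1' hf

end Cfsg.Agent.H783.CS
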